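import Mathlib
import Cfsg.Agent.Lib.Helper41.CS3.GoodDefs
import Cfsg.Agent.Lib.Helper24.CS3.Basics
import Cfsg.Agent.Lib.Helper71.CS3.Basics

/-!
# CS3 (S4284), part GOOD: package [HY]
-/

set_option autoImplicit false

namespace Cfsg.Agent.Lib.Helper27.CS3

open Cfsg.Agent.Lib.Helper81.CS3 Cfsg.Agent.Lib.Helper41.CS3

universe u

variable {G : Type u} [Group G]

theorem mem_Cn_iff {x g : G} : g ∈ Cn x ↔ g * x = x * g :=
  Subgroup.mem_centralizer_singleton_iff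

/-- an abelian subgroup containing `w` lies in `C(w)` -/
theorem le_Cn_of_ab {H : Subgroup G} (hH : Ab H) {w : G} (hw : w ∈ H) : H ≤ Cn w := by
  intro c hc
  rw [mem_Cn_iff]
  exact hH c hc w hw

/-- the centralizer of a conjugate of `a` is abelian when `C(a)` is -/
theorem ab_Cn_conj {a : G} (hab : Ab (Cn a)) (g : G) : Ab (Cn (g * a * g⁻¹)) := by
  intro x hx z hz
  rw [mem_Cn_iff] at hx hz
  have hx' : g⁻¹ * x * g ∈ Cn a := by
    rw [mem_Cn_iff]
    have : g⁻¹ * x * g * a = g⁻¹ * (x * (g * a * g⁻¹)) * g := by group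
    rw [this, hx]; group
  have hz' : g⁻¹ * z * g ∈ Cn a := by
    rw [mem_Cn_iff]
    have : g⁻¹ * z * g * a = g⁻¹ * (z * (g * a * g⁻¹)) * g := by group
    rw [this, hz]; group
  have h := hab _ hx' _ hz'
  have e1 : x * z = g * ((g⁻¹ * x * g) * (g⁻¹ * z * g)) * g⁻¹ := by group
  have e2 : z * x = g * ((g⁻¹ * z * g) * (g⁻¹ * x * g)) * g⁻¹ := by group
  rw [e1, e2, h]

/-- (*) an element commuting with an element of index `m` does not have index `m n` -/
theorem star_hy [Finite G] {m n : ℕ} (hyp : Hyp G m n) (hG4c : PkgG4c.{u}) {a : G}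
    (hixa : ix a = m) (hab : Ab (Cn a)) {v w : G} (hv : ix v = m) (hc : w * v = v * w) :
    ix w ≠ m * n := by
  obtain ⟨g, hg⟩ := hG4c m n hyp a hixa hab v hv
  have habv : Ab (Cn v) := by rw [hg]; exact ab_Cn_conj hab g
  have hw : w ∈ Cn v := mem_Cn_iff.mpr hc
  have hle : Cn v ≤ Cn w := le_Cn_of_ab habv hw
  have hdvd : ix w ∣ ix v := Subgroup.index_dvd_of_le hle
  rw [hv] at hdvd
  intro h
  rw [h] at hdvd
  have hm : 0 < m := lt_trans Nat.zero_lt_one hyp.2.1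
  have hn : 1 < n := hyp.2.2.1
  have := Nat.le_of_dvd hm hdvd
  nlinarith

theorem eq_of_le_of_ix_eq [Finite G] {x z : G} (hle : Cn x ≤ Cn z) (h : ix x = ix z) :
    Cn x = Cn z := by
  apply le_antisymm hle
  have h1 := Subgroup.relIndex_mul_index hle
  have hz : ix z ≠ 0 := Subgroup.index_ne_zero_of_finite
  have h2 : (Cn x).relIndex (Cn z) = 1 := by
    have h3 : (Cn x).relIndex (Cn z) * ix z = 1 * ix z := by rw [one_mul]; exact h1.trans h
    exact Nat.eq_of_mul_eq_mul_right (Nat.pos_of_ne_zero hz) h3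
  exact Subgroup.relIndex_eq_one.mp h2

theorem prim_coprime {r t : ℕ} (hr : r.Prime) (ht : t.Prime) (hne : r ≠ t) {x z : G}
    (hx : Prim r x) (hz : Prim t z) : (orderOf x).Coprime (orderOf z) := by
  obtain ⟨k, hk⟩ := hx
  obtain ⟨l, hl⟩ := hz
  rw [hk, hl]
  exact Nat.Coprime.pow _ _ ((Nat.coprime_primes hr ht).mpr hne)

/-- **[HY]** -/
theorem pkgHy_of (hNC : PkgNC.{u}) (hG4c : PkgG4c.{u}) (hSplit : PkgSplit.{u}) : PkgHy.{u} := by
  intro G _ _ m n hyp s s2 a y hs hsm hs2 hs2m hne hixa hab hprim hixy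
  obtain ⟨u, huy, hu2, hunc⟩ := hNC m n hyp s2 hs2 hs2m y
  have hcuy : u * y = y * u := mem_Cn_iff.mp huy
  have hixu : ix u = m * n := by
    rcases Cfsg.Agent.Lib.Helper24.CS3.index_mem hyp u with h | h | h
    · exact absurd ((Cfsg.Agent.Lib.Helper71.CS3.idx_eq_one_iff u).mp h) hunc
    · exact absurd hixy (star_hy hyp hG4c hixa hab h hcuy.symm)
    · exact h
  have hmax := Cfsg.Agent.Lib.Helper24.CS3.index_le hyp
  have hco : (orderOf u).Coprime (orderOf y) := prim_coprime hs2 hs hne hu2 hprim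
  have hCu_le : Cn u ≤ Cn y :=
    Cfsg.Agent.Lib.Helper24.CS3.cent_le_of_max hmax u y hixu hcuy hco
  have hCy_le : Cn y ≤ Cn u :=
    Cfsg.Agent.Lib.Helper24.CS3.cent_le_of_max hmax y u hixy hcuy.symm hco.symm
  have key : ∀ g ∈ Cn y, Cn y ≤ Cn g := by
    intro g hg
    obtain ⟨g1, g2, hgg, hp1, hco2, ⟨k1, hk1⟩, ⟨k2, hk2⟩⟩ := hSplit s hs g
    have hg1 : g1 ∈ Cn y := by rw [hk1]; exact Subgroup.pow_mem _ hg k1
    have hg2 : g2 ∈ Cn y := by rw [hk2]; exact Subgroup.pow_mem _ hg k2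
    have hcy2 : y * g2 = g2 * y := (mem_Cn_iff.mp hg2).symm
    have hcoy2 : (orderOf y).Coprime (orderOf g2) := by
      obtain ⟨l, hl⟩ := hprim
      rw [hl]
      exact Nat.Coprime.pow_left _ hco2.symm
    have h2 : Cn y ≤ Cn g2 :=
      Cfsg.Agent.Lib.Helper24.CS3.cent_le_of_max hmax y g2 hixy hcy2 hcoy2
    have hcu1 : u * g1 = g1 * u := (mem_Cn_iff.mp (hCy_le hg1)).symm
    have hcou1 : (orderOf u).Coprime (orderOf g1) := prim_coprime hs2 hs hne hu2 hp1
    have h1 : Cn u ≤ Cn g1 :=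
      Cfsg.Agent.Lib.Helper24.CS3.cent_le_of_max hmax u g1 hixu hcu1 hcou1
    intro c hc
    have hc1 : c * g1 = g1 * c := mem_Cn_iff.mp (h1 (hCy_le hc))
    have hc2 : c * g2 = g2 * c := mem_Cn_iff.mp (h2 hc)
    rw [mem_Cn_iff, hgg, ← mul_assoc, hc1, mul_assoc, hc2, ← mul_assoc]
  refine ⟨?_, ?_⟩
  · intro x hx z hz
    exact (mem_Cn_iff.mp (key x hx hz)).symm
  · intro v hv hvnc
    have hle : Cn y ≤ Cn v := key v hv
    have hcvy : y * v = v * y := mem_Cn_iff.mp (hle (mem_Cn_iff.mpr rfl))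
    have hixv : ix v = m * n := by
      rcases Cfsg.Agent.Lib.Helper24.CS3.index_mem hyp v with h | h | h
      · exact absurd ((Cfsg.Agent.Lib.Helper71.CS3.idx_eq_one_iff v).mp h) hvnc
      · exact absurd hixy (star_hy hyp hG4c hixa hab h hcvy)
      · exact h
    exact (eq_of_le_of_ix_eq hle (hixy.trans hixv.symm)).symm

end Cfsg.Agent.Lib.Helper27.CS3
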