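import Mathlib
import Cfsg.Agent.Lib.Helper27.CS3.GoodHy

/-!
# CS3 (S4284), part GOOD: package [S5]
-/

set_option autoImplicit false

namespace Cfsg.Agent.Lib.Helper27.CS3

open Cfsg.Agent.Lib.Helper81.CS3 Cfsg.Agent.Lib.Helper41.CS3

universe u

variable {G : Type u} [Group G]

theorem orderOf_conj_s5 (g u : G) : orderOf (g⁻¹ * u * g) = orderOf u := by
  have := MulEquiv.orderOf_eq (MulAut.conj g⁻¹) u
  simpa [MulAut.conj_apply] using this

/-- **[S5]** -/
theorem pkgS5_of (hSylow : PkgSylow.{u}) (hPrim : PkgPrim.{u}) (hAt : PkgAt.{u}) :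
    PkgS5.{u} := by
  intro G _ _ m n hyp s t a A T hgood hconf hS4 x
  have ht := hconf.tp
  have hTle : T ≤ Cn a := le_sup_right.trans hconf.sup.le
  rcases hPrim t ht x with ⟨r, u, hr, hrt, hpu, hunc, k, hk⟩ | ⟨xt, z, hx, hpt, hz⟩
  · -- a non-central `r`-element `u = x ^ k`
    have hu1 : u ≠ 1 := fun h => hunc (h ▸ Subgroup.one_mem _)
    obtain ⟨j, hj⟩ := hpu
    have hj0 : j ≠ 0 := by
      rintro rfl
      rw [pow_zero, orderOf_eq_one_iff] at hj
      exact hu1 hj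
    have hrG : r ∣ Nat.card G := by
      have h1 : r ∣ orderOf u := by rw [hj]; exact dvd_pow_self r hj0
      exact h1.trans (orderOf_dvd_natCard u)
    have hrmn := Cfsg.Agent.Lib.Helper71.CS3.prime_dvd_mul hyp hr hrG
    obtain ⟨kn, hkn⟩ := hconf.tn
    have hrn : ¬ r ∣ n := by
      intro h
      rw [hkn] at h
      exact hrt ((Nat.prime_dvd_prime_iff_eq hr ht).mp (hr.dvd_of_dvd_pow h))
    have hrm : r ∣ m := (hr.dvd_mul.mp hrmn).resolve_right hrn
    have hixu : ix u = m := by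
      rcases Cfsg.Agent.Lib.Helper24.CS3.index_mem hyp u with h | h | h
      · exact absurd ((Cfsg.Agent.Lib.Helper71.CS3.idx_eq_one_iff u).mp h) hunc
      · exact h
      · exact absurd h (hS4 r u hr hrm ⟨j, hj⟩)
    have htm : ¬ t ∣ m := by
      intro htm
      have hkn0 : kn ≠ 0 := by
        rintro rfl
        have := hyp.2.2.1
        rw [hkn, pow_zero] at this
        exact lt_irrefl _ this
      have htn : t ∣ n := by rw [hkn]; exact dvd_pow_self t hkn0
      have h1 := Nat.dvd_gcd htm htn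
      rw [hyp.2.2.2.1.gcd_eq_one] at h1
      exact ht.one_lt.ne' (Nat.dvd_one.mp h1)
    obtain ⟨g, hg⟩ := hSylow t ht T (Cn u) hconf.pT (by rw [show (Cn u).index = ix u from rfl, hixu]; exact htm)
    -- u' := g⁻¹ u g centralizes T
    have hcent : g⁻¹ * u * g ∈ Subgroup.centralizer (T : Set G) := by
      rw [Subgroup.mem_centralizer_iff]
      intro τ hτ
      have h1 := mem_Cn_iff.mp (hg τ hτ)
      -- h1 : g * τ * g⁻¹ * u = u * (g * τ * g⁻¹)
      have e1 : τ * (g⁻¹ * u * g) = g⁻¹ * (g * τ * g⁻¹ * u) * g := by group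
      have e2 : g⁻¹ * u * g * τ = g⁻¹ * (u * (g * τ * g⁻¹)) * g := by group
      rw [e1, e2, h1]
    have hu'a : g⁻¹ * u * g ∈ Cn a := hconf.cent hcent
    have hpu' : Prim r (g⁻¹ * u * g) := ⟨j, by rw [orderOf_conj_s5, hj]⟩
    have hle : Cn a ≤ Cn (g⁻¹ * u * g) := hAt n t a A T hconf r _ hr hrt hpu' hu'a
    have hu'nc : g⁻¹ * u * g ∉ Subgroup.center G := by
      intro hc
      apply hunc
      have h2 := Subgroup.mem_center_iff.mp hc g
      -- h2 : g * (g⁻¹ * u * g) = g⁻¹ * u * g * g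
      have : u = g⁻¹ * u * g := by
        calc u = (g * (g⁻¹ * u * g)) * g⁻¹ := by group
          _ = (g⁻¹ * u * g * g) * g⁻¹ := by rw [h2]
          _ = g⁻¹ * u * g := by group
      rw [this]; exact hc
    have hixu' : ix (g⁻¹ * u * g) = m := by
      rcases Cfsg.Agent.Lib.Helper24.CS3.index_mem hyp (g⁻¹ * u * g) with h | h | h
      · exact absurd ((Cfsg.Agent.Lib.Helper71.CS3.idx_eq_one_iff _).mp h) hu'nc
      · exact h
      · exact absurd h (hS4 r _ hr hrm hpu')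
    have heq : Cn a = Cn (g⁻¹ * u * g) := eq_of_le_of_ix_eq hle (hgood.ixa.trans hixu'.symm)
    refine ⟨g, ?_⟩
    rw [heq, mem_Cn_iff]
    have hxu : x * u = u * x := by rw [hk]; exact (pow_mul_comm' x k).symm
    have e1 : g⁻¹ * x * g * (g⁻¹ * u * g) = g⁻¹ * (x * u) * g := by group
    have e2 : g⁻¹ * u * g * (g⁻¹ * x * g) = g⁻¹ * (u * x) * g := by group
    rw [e1, e2, hxu]
  · -- `x = xt * z`, `xt` a `t`-element, `z` central
    obtain ⟨j, hj⟩ := hpt
    have hK : IsPGroup t (Subgroup.zpowers xt) :=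
      IsPGroup.of_card (n := j) (by rw [Nat.card_zpowers, hj])
    obtain ⟨g, hg⟩ := hSylow t ht (Subgroup.zpowers xt) T hK hconf.sylT
    have h1 : g * xt * g⁻¹ ∈ Cn a := hTle (hg xt (Subgroup.mem_zpowers xt))
    have h2 : z ∈ Cn a := by
      rw [mem_Cn_iff]
      exact (Subgroup.mem_center_iff.mp hz a).symm
    refine ⟨g⁻¹, ?_⟩
    have e : g⁻¹⁻¹ * x * g⁻¹ = (g * xt * g⁻¹) * z := by
      rw [hx, inv_inv]
      have hz' := Subgroup.mem_center_iff.mp hz g⁻¹
      -- hz' : g⁻¹ * z = z * g⁻¹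
      calc g * (xt * z) * g⁻¹ = g * xt * (z * g⁻¹) := by group
        _ = g * xt * (g⁻¹ * z) := by rw [hz']
        _ = g * xt * g⁻¹ * z := by group
    rw [e]
    exact Subgroup.mul_mem _ h1 h2

end Cfsg.Agent.Lib.Helper27.CS3
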